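import Cfsg.Agent.KKL.Four
import Cfsg.Agent.KKL.Num2
import Cfsg.Agent.R16.EvA
import Cfsg.Agent.R16.Diag
import Cfsg.Agent.R16.Pur8
import Cfsg.Agent.KKL.GrpB
import Cfsg.Agent.Block.BDGrid
import Cfsg.Agent.Block.BDAb

/-! Tower KKL: blocks with defect group `C₂³` and transitive fusion have eight characters. -/

set_option autoImplicit false

open Cfsg Cfsg.Lib Cfsg.Lib.Char Cfsg.Lib.Block MulAction

namespace Cfsg.Lib.KKL

universe u

section BD
variable {M : Ideal AlgInt} {S : Type u} [Group S]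

namespace EightA

theorem comm (hsq : ∀ u : S, u * u = 1) (x y : S) : x * y = y * x := by
  have h := fun a : S => inv_eq_of_mul_eq_one_right (hsq a)
  rw [← h (x * y), mul_inv_rev, h, h]

theorem rk13 (c : BD 2 M S) (h8 : Nat.card S = 8) (hsq : ∀ u : S, u * u = 1) {u : S} (hu : u ≠ 1)
    (ht : ∀ v, v ≠ 1 → c.ef u v) : c.rk u = 1 ∨ c.rk u = 3 := by
  have := c.finite
  have hc := comm hsq
  have e1 : stabilizer c.aut u = (AG.Sb c.aut u).subgroupOf c.aut := by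
    ext g
    exact ⟨fun hg => ⟨g.2, hg⟩, fun hg => hg.2⟩
  have e2 : orbit c.aut u = {1}ᶜ := by
    ext v
    refine ⟨?_, fun hv => ?_⟩
    · rintro ⟨a, rfl⟩ h
      exact hu ((map_eq_one_iff a.1 a.1.injective).1 h)
    · obtain ⟨a, ha, e⟩ := (BD.ef_iff hc).1 (ht v hv)
      exact ⟨⟨a, ha⟩, e⟩
  have e3 := (stabilizer c.aut u).card_mul_index
  rw [index_stabilizer, e2, e1, Nat.card_congr (Subgroup.subgroupOfEquivOfLe
    (show AG.Sb c.aut u ≤ c.aut from inf_le_left)).toEquiv, Set.ncard_compl,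
    Set.ncard_singleton, h8] at e3
  have h := grpB h8 hsq c.aut (c.not_dvd_card_aut hc)
  have h3 : Nat.card (AG.Sb c.aut u) = 1 ∨ Nat.card (AG.Sb c.aut u) = 3 := by omega
  rw [BD.rk_eq_of_le_three hc (by omega)]
  exact h3

theorem odd (c : BD 2 M S) (h8 : Nat.card S = 8) (hsq : ∀ u : S, u * u = 1) {u : S} (hu : u ≠ 1)
    (η : regLat 2 (c.sb u)) (ho : ¬ (2 : ℤ) ∣ bf 2 (c.sb u) η η) :
    bf 2 (c.sb u) η η % 8 = c.rk u := by
  have := c.finite
  have h4 : u ∈ Subgroup.center S := Subgroup.mem_center_iff.2 fun g => comm hsq g u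
  have := normal_zpowers h4
  obtain ⟨d, h5⟩ := c.exists_cq' h4
  obtain ⟨-, ε, h6, -⟩ := h5.iso
  obtain ⟨η, rfl⟩ := ε.surjective η
  rw [h6] at ho ⊢
  rw [← h5.l_eq]
  refine four d ?_ (fun x => ?_) η ho
  · have h7 := (Subgroup.zpowers u).card_mul_index
    rw [Nat.card_zpowers, orderOf_eq_prime (p := 2) (by rw [sq, hsq]) hu, h8] at h7
    rw [← Subgroup.index_eq_card]; omega
  · obtain ⟨x, rfl⟩ := QuotientGroup.mk_surjective x
    rw [← QuotientGroup.mk_mul, hsq, QuotientGroup.mk_one]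

theorem kl (c : BD 2 M S) {u : S} (hu : u ≠ 1) (ht : ∀ v, v ≠ 1 → c.ef u v) :
    c.k = c.l + c.rk u := by
  classical
  have := c.finite
  have := Fintype.ofFinite S
  have h1 := c.k_eq_sum
  have h2 := BD.sum_wt_ef (b := c) u
  have h3 := BD.sum_wt_ef (b := c) 1
  rw [show (Finset.univ.filter fun v => c.ef u v) = Finset.univ.erase 1 from by
    ext v
    simp only [Finset.mem_filter, Finset.mem_univ, true_and, Finset.mem_erase, and_true]
    exact ⟨fun h e => hu (BD.ef.eq_one (e ▸ h.symm)), ht v⟩] at h2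
  rw [show (Finset.univ.filter fun v => c.ef 1 v) = {1} from by
    ext v
    simp only [Finset.mem_filter, Finset.mem_univ, true_and, Finset.mem_singleton]
    exact ⟨BD.ef.eq_one, fun h => h.symm ▸ c.ef_refl _⟩, Finset.sum_singleton, c.rk_one] at h3
  rw [← Finset.add_sum_erase _ _ (Finset.mem_univ 1), h2, h3] at h1
  exact_mod_cast h1

end EightA

theorem eightA (c : BD 2 M S) (h8 : Nat.card S = 8) (hsq : ∀ u : S, u * u = 1) {u : S} (hu : u ≠ 1)
    (ht : ∀ v, v ≠ 1 → c.ef u v) : c.k = 8 ∧ (c.rk u = 1 ∨ c.rk u = 3) ∧ c.k = c.l + c.rk u := by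
  classical
  have hr := EightA.rk13 c h8 hsq hu ht
  refine ⟨?_, hr, EightA.kl c hu ht⟩
  have : Nontrivial S := ⟨u, 1, hu⟩
  obtain ⟨η, hm, hs, hη⟩ := num2 c h8 hsq hu ht
  obtain ⟨N, hN, hodd, -⟩ := R16.diag c hsq u
  have hNη : ∀ χ ψ, N χ ψ = bf 2 (c.sb u) (η χ) (η ψ) := fun χ ψ => by
    have h1 := hN χ ψ
    rw [h8, Nat.cast_ofNat, hm] at h1
    exact_mod_cast h1.symm
  have hN8 : ∀ χ ψ, (N χ ψ : ℂ) = 8 * c.mat (c.dlt u) χ ψ := fun χ ψ => by
    rw [← hN, h8, Nat.cast_ofNat]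
  have hsq' : ∀ χ ψ, ∑ x ∈ irrFin c.B, N χ x * N x ψ = 8 * N χ ψ := fun χ ψ => by
    have h1 := BD.mat_mul (BD.st_dlt (b := c) u) (BD.st_dlt u) χ ψ
    rw [show c.dlt u * c.dlt u = c.dlt u from funext fun x => by
      simp only [BD.dlt, Pi.mul_apply]; split_ifs <;> simp] at h1
    have h2 : ((∑ x ∈ irrFin c.B, N χ x * N x ψ : ℤ) : ℂ) = ((8 * N χ ψ : ℤ) : ℂ) := by
      push_cast
      simp only [hN8]
      rw [← h1, Finset.mul_sum, Finset.mul_sum]
      exact Finset.sum_congr rfl fun x _ => by ring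
    exact_mod_cast h2
  have hsy : ∀ χ ψ, N χ ψ = N ψ χ := fun χ ψ => by
    have h1 := BD.conj_mat (BD.st_dlt (b := c) u) (fun v => by
      rw [BD.dlt]; split_ifs <;> simp) χ ψ
    have h2 := congrArg (starRingEnd ℂ) (hN8 χ ψ)
    rw [map_mul, h1, map_intCast, map_ofNat, ← hN8] at h2
    exact_mod_cast h2
  rw [BD.k, ← card_irrFin]
  refine (R16.pur8 (irrFin c.B) N (fun χ => blockHeight 2 c.B (χ : c.G → ℂ) = 0) (c.rk u)
    (by omega) hsy hsq'
    (fun a ha b hb => hodd a (mem_irrFin.1 ha) b (mem_irrFin.1 hb)) (fun χ hχ h => ?_)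
    (fun χ hχ h => ?_) (by simp only [hNη]; exact hs) ?_ fun a ha => ?_).1
  · obtain ⟨a1, a2, a3, -⟩ := hη χ (mem_irrFin.1 hχ)
    have := EightA.odd c h8 hsq hu _ (a3.1 h)
    rw [hNη]
    omega
  · obtain ⟨a1, a2, -, a4⟩ := hη χ (mem_irrFin.1 hχ)
    have a6 : (2 : ℤ) ^ 2 ∣ _ := (pow_dvd_pow 2 (by omega)).trans (a4 h)
    rw [hNη]
    omega
  · obtain ⟨ψ, hψ, hψ0⟩ := Ht.exists_blockHeight_eq_zero 2 (isPBlock_nonempty c.hM c.hB)
    exact ⟨ψ, mem_irrFin.2 hψ, hψ0⟩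
  · refine R16.evA c hsq a fun v hv ψ => ?_
    have e : c.dlt v = c.dlt u := funext fun x => by
      have h1 := ht v hv
      simp only [BD.dlt, propext (⟨fun h => h1.trans h, fun h => h1.symm.trans h⟩ :
        c.ef v x ↔ c.ef u x)]
    have h1 : ∑ y ∈ irrFin c.B, (∑ x ∈ irrFin c.B, a x * N x y) * N y ψ = 0 :=
      Finset.sum_eq_zero fun y _ => by rw [ha y, zero_mul]
    simp only [Finset.sum_mul, mul_assoc] at h1
    rw [Finset.sum_comm] at h1
    simp only [← Finset.mul_sum, hsq'] at h1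
    have h2 : ((∑ x ∈ irrFin c.B, a x * (8 * N x ψ) : ℤ) : ℂ) = 0 := by exact_mod_cast h1
    push_cast at h2
    simp only [hN8] at h2
    rw [e]
    have h3 : (64 : ℂ) * ∑ χ ∈ irrFin c.B, (a χ : ℂ) * c.mat (c.dlt u) χ ψ = 0 := by
      rw [← h2, Finset.mul_sum]
      exact Finset.sum_congr rfl fun x _ => by ring
    exact (mul_eq_zero.1 h3).resolve_left (by norm_num)

end BD

end Cfsg.Lib.KKL
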