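import Cfsg.Agent.KKL.Red

/-!
Blocks with elementary abelian defect group of order `8`: reduction to the transitive case.
-/

set_option autoImplicit false

open Cfsg Cfsg.Lib.Char Cfsg.Lib.Block Cfsg.Lib.Block.Pair Cfsg.Lib.Block.AG Subgroup

namespace Cfsg.Lib.KKL

universe u

variable {M : Ideal AlgInt} {S : Type u} [Group S]

theorem comm_of_sq (hsq : ∀ u : S, u * u = 1) (x y : S) : x * y = y * x := by
  have h2 : ∀ x : S, x⁻¹ = x := fun x => inv_eq_of_mul_eq_one_right (hsq x)
  rw [← h2 (x * y), mul_inv_rev, h2, h2]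

theorem trans_of_seven (c : BD 2 M S) (hc : ∀ x y : S, x * y = y * x) (h8 : Nat.card S = 8) {m : ℕ}
    (h7 : Nat.card c.aut = 7 * m) {u : S} (hu : u ≠ 1) (v : S) (hv : v ≠ 1) : c.ef u v := by
  have := c.finite
  have h1 := ((k_eq_of_seven c hc h8 h7).2 u hu).2
  have h2 : {w | c.ef u w} ⊆ ({1}ᶜ : Set S) := fun w hw h => by
    rw [Set.mem_singleton_iff.1 h] at hw
    exact hu (BD.ef.symm hw).eq_one
  have h3 : ({1}ᶜ : Set S).ncard = 7 := by
    have := Set.ncard_add_ncard_compl ({1} : Set S)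
    rw [Set.ncard_singleton, h8] at this
    omega
  have h4 : {w | c.ef u w}.ncard = 7 := by rw [← Nat.card_coe_set_eq]; exact h1
  have h5 := Set.eq_of_subset_of_ncard_le h2 (by omega)
  exact (h5 ▸ hv : v ∈ {w | c.ef u w})

theorem k_eq_of_le_three (c : BD 2 M S) (hc : ∀ x y : S, x * y = y * x) (h8 : Nat.card S = 8)
    (h : Nat.card c.aut ≤ 3) : c.k = 8 := by
  classical
  have := c.finite
  have := Fintype.ofFinite S
  have h1 := BD.k_eq_sum (b := c)
  have hr : ∀ v, c.rk v = Nat.card (Sb c.aut v) := fun v => BD.rk_eq_of_le_three hc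
    ((Nat.le_of_dvd Nat.card_pos (card_Sb_dvd c.aut v)).trans h)
  have h21 := dvd_21 (card_aut_dvd c hc h8)
  obtain h3 | h3 : Nat.card c.aut = 1 ∨ Nat.card c.aut = 3 := by omega
  · rw [Finset.sum_congr rfl (g := fun _ => (1 : ℚ)) fun v _ => by
      have h4 := nf_mul c hc v
      rw [h3] at h4
      rw [BD.wt, hr, Nat.eq_one_of_mul_eq_one_right h4, Nat.eq_one_of_mul_eq_one_left h4]
      norm_num, Finset.sum_const, Finset.card_univ, ← Nat.card_eq_fintype_card, h8] at h1
    have h2 : (c.k : ℚ) = (8 : ℕ) := by rw [h1]; simp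
    exact_mod_cast h2
  · obtain ⟨a, ha, h4⟩ := exists_prime_mem c.aut Nat.prime_three h3.symm.dvd
    have a1 := ne_one_of_orderOf Nat.prime_three h4
    have h5 := card_Fx_modEq (V := ⊤) Nat.prime_three h4 fun _ _ => trivial
    have h6 : Nat.card (Fx a ⊓ ⊤ : Subgroup S) < Nat.card (⊤ : Subgroup S) := card_lt fun h0 =>
      a1 (MulEquiv.ext fun x => h0 (mem_top x))
    rw [card_top, h8, inf_top_eq] at h5 h6
    have h7 : Nat.card (Fx a) = 2 := by
      have := dvd_32 ((h8 ▸ card_subgroup_dvd_card (Fx a)).trans (by decide : 8 ∣ 32))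
      rw [Nat.ModEq] at h5
      omega
    have h9 : ∀ v, c.wt v = if v ∈ Fx a then 3 else 1 / 3 := fun v => by
      have h10 := nf_mul c hc v
      have h11 := (Nat.dvd_prime Nat.prime_three).1 (h3 ▸ card_Sb_dvd c.aut v)
      rw [h3] at h10
      rw [BD.wt, hr]
      split_ifs with hv
      · have h12 := one_lt_card (V := Sb c.aut v) ⟨ha, hv⟩ a1
        have h13 : Nat.card (Sb c.aut v) = 3 := by omega
        rw [h13] at h10 ⊢
        rw [show c.nf v = 1 by omega]
        norm_num
      · have h13 : Nat.card (Sb c.aut v) = 1 := h11.resolve_right fun h12 =>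
          hv ((eq_of_le_of_card_ge (inf_le_left : Sb c.aut v ≤ c.aut) (h3.trans h12.symm).le).ge ha).2
        rw [h13] at h10 ⊢
        rw [show c.nf v = 3 by omega]
        norm_num
    have h10 : (Finset.univ.filter fun v => v ∈ Fx a).card = 2 := by
      rw [← Fintype.card_subtype, ← Nat.card_eq_fintype_card, h7]
    have h11 := Finset.card_filter_add_card_filter_not (s := (Finset.univ : Finset S))
      fun v => v ∈ Fx a
    rw [Finset.card_univ, ← Nat.card_eq_fintype_card, h8, h10] at h11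
    rw [Finset.sum_congr rfl fun v _ => h9 v, Finset.sum_ite, Finset.sum_const, Finset.sum_const,
      h10, show (Finset.univ.filter fun v => ¬ v ∈ Fx a).card = 6 by omega] at h1
    have h2 : (c.k : ℚ) = (8 : ℕ) := by rw [h1]; norm_num
    exact_mod_cast h2

theorem kkl_of (c : BD 2 M S) (h8 : Nat.card S = 8) (hsq : ∀ u : S, u * u = 1)
    (h : ∀ u : S, u ≠ 1 → (∀ v, v ≠ 1 → c.ef u v) → ∀ m, Nat.card c.aut = 7 * m → c.k = 8) :
    c.k = 8 := by
  have := c.finite
  have hc := comm_of_sq hsq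
  have : Nontrivial S := Finite.one_lt_card_iff_nontrivial.1 (by omega)
  obtain ⟨u, hu⟩ := exists_ne (1 : S)
  rcases dvd_21 (card_aut_dvd c hc h8) with h1 | h1 | h1 | h1
  · exact k_eq_of_le_three c hc h8 (by omega)
  · exact k_eq_of_le_three c hc h8 (by omega)
  · exact h u hu (trans_of_seven c hc h8 (m := 1) h1 hu) 1 h1
  · exact h u hu (trans_of_seven c hc h8 (m := 3) h1 hu) 3 h1

end Cfsg.Lib.KKL
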